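import Mathlib
import Cfsg.Agent.H481.OddAut.Main
import Cfsg.Agent.H481.OddAut.Exponent
import Cfsg.Agent.S0292

/-!
# Isolation of `(qⁿ + 1) / 2` in an almost simple group with socle `Ω₂ₙ₊₁(q)` (helper481)

`top_of_iso` : `n = 2 ^ k`, `q = p ^ a` odd with `a` odd. If the number `m = (qⁿ + 1) / 2` is isolated in `A` (`r ∣ m`, `r ∣ |x|`
imply `|x| ∣ m`) and `|A : S|` is prime to `m`, then `A = S`.
-/

set_option autoImplicit false
set_option linter.unusedSectionVars false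

namespace Cfsg.Agent.H481.OddAut

open QuadraticMap Module
open Cfsg.Agent.LieClassical.OrthCore Cfsg.Agent.LieClassical.OrthFinite Cfsg.Agent.LieClassical.OrthForms
  Cfsg.Agent.LieClassical.OrthSimple Cfsg.Agent.LieClassical.OrthTrans Cfsg.Agent.ClassicalGeometry.OrthSemi
  Cfsg.Agent.ClassicalGeometry.OrthSemiForms Cfsg.Agent.ClassicalGeometry.OrthAut1
  Cfsg.Agent.ClassicalGeometry.SympAutSemi Cfsg.Agent.H160.QSpin Cfsg.Agent.H160.QDisc Cfsg.Agent.H160.QSplit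
  Cfsg.Agent.H160.QFinal Cfsg.Agent.H989.OutOrth.Basic

/-! ### A prime -/

/-- the order of `p` modulo an odd prime divisor of `p ^ 2 ^ k + 1` -/
theorem orderOf_eq {p k r : ℕ} (hr : r.Prime) (hr2 : r ≠ 2) (h : r ∣ p ^ 2 ^ k + 1) :
    orderOf (p : ZMod r) = 2 * 2 ^ k := by
  have hrf : Fact r.Prime := ⟨hr⟩
  have h1 : (p : ZMod r) ^ 2 ^ k = -1 := by
    have h2 : ((p ^ 2 ^ k + 1 : ℕ) : ZMod r) = 0 := (ZMod.natCast_eq_zero_iff _ _).2 h
    push_cast at h2
    exact eq_neg_of_add_eq_zero_left h2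
  rw [← pow_succ']
  apply orderOf_eq_prime_pow
  · rw [h1]
    intro h3
    have h4 : ((2 : ℕ) : ZMod r) = 0 := by
      push_cast
      linear_combination -h3
    exact hr2 ((Nat.prime_dvd_prime_iff_eq hr Nat.prime_two).1 ((ZMod.natCast_eq_zero_iff _ _).1 h4))
  · rw [pow_succ, pow_mul, h1]
    ring

theorem exists_prime_plus {p k : ℕ} (hp : 3 ≤ p) (hodd : Odd p) (hk : 1 ≤ k) :
    ∃ r : ℕ, r.Prime ∧ r ≠ 2 ∧ r ∣ p ^ 2 ^ k + 1 := by
  have h4 : p ^ 2 ^ k % 4 = 1 := by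
    obtain ⟨j, rfl⟩ : ∃ j, k = j + 1 := ⟨k - 1, by omega⟩
    rw [pow_succ, mul_comm, pow_mul, Nat.pow_mod]
    have : p ^ 2 % 4 = 1 := by
      obtain ⟨c, rfl⟩ := hodd
      have e : (2 * c + 1) ^ 2 = 4 * (c * c + c) + 1 := by ring
      omega
    rw [this, one_pow]
    norm_num
  have hbig : 3 ≤ p ^ 2 ^ k := hp.trans (Nat.le_self_pow (by positivity) p)
  have hne : (p ^ 2 ^ k + 1) / 2 ≠ 1 := by omega
  obtain ⟨r, hr, hrd⟩ := Nat.exists_prime_and_dvd hne
  refine ⟨r, hr, ?_, hrd.trans (Nat.div_dvd_of_dvd (by omega))⟩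
  rintro rfl
  omega

/-! ### The main theorem -/

section Group

variable {A : Type*} [Group A] [Finite A]

/-- an element commuting with `z` of order `r` -/
theorem order_dvd_of_comm {m r : ℕ} (hr : r.Prime) (hrm : r ∣ m)
    (iso : ∀ (r : ℕ) (x : A), r.Prime → r ∣ m → r ∣ orderOf x → orderOf x ∣ m) {z w : A} (hz : orderOf z = r)
    (hc : Commute w z) : orderOf w ∣ m := by
  by_cases h : r ∣ orderOf w
  · exact iso r w hr hrm h
  · have h1 : Nat.Coprime (orderOf w) (orderOf z) := by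
      rw [hz]
      exact ((Nat.Prime.coprime_iff_not_dvd hr).2 h).symm
    have h2 := hc.orderOf_mul_eq_mul_orderOf_of_coprime h1
    have h3 := iso r (w * z) hr hrm (by rw [h2, hz]; exact Dvd.intro_left _ rfl)
    exact (Dvd.intro _ rfl).trans (h2 ▸ h3)

theorem mem_of_coprime {S : Subgroup A} [S.Normal] {m : ℕ} (hi : Nat.Coprime S.index m) {w : A} (hw : orderOf w ∣ m) :
    w ∈ S := by
  rw [← QuotientGroup.eq_one_iff, ← orderOf_eq_one_iff, ← Nat.dvd_one, ← Nat.Coprime.gcd_eq_one hi]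
  exact Nat.dvd_gcd (orderOf_dvd_natCard _) ((orderOf_map_dvd (QuotientGroup.mk' S) w).trans hw)

end Group

section Sg

variable {F V : Type*} [Field F] [AddCommGroup V] [Module F V] {Q : QuadraticForm F V} {A : Type*} [Group A]
  {S : Subgroup A} [hN : S.Normal]

theorem sg_unique (hG : Good Q) {φ : ↥S ≃* ↥(E Q)} {x : A} {M M' : Gam Q} (h : Acts φ x M) (h' : Acts φ x M') :
    sg hG M = sg hG M' := by
  have h1 : sg hG (M'⁻¹ * M) = 1 := by
    apply sg_eq_one_of_conj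
    intro k hk
    obtain ⟨u, hu⟩ := φ.surjective ⟨k, hk⟩
    have h2 : conjLin M k = conjLin M' k := by
      have h3 := h u
      have h4 := h' u
      rw [hu] at h3 h4
      rw [← h3, ← h4]
    rw [conjLin_mul_left, h2, ← conjLin_mul_left, inv_mul_cancel, conjLin_one_left]
  rw [map_mul, map_inv, inv_mul_eq_one] at h1
  exact h1.symm

theorem sg_of_mem (hG : Good Q) {φ : ↥S ≃* ↥(E Q)} {x : A} (hx : x ∈ S) {M : Gam Q} (h : Acts φ x M) : sg hG M = 1 := by
  rw [sg_unique hG h (acts_of_mem φ ⟨x, hx⟩), sg_ofO]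

end Sg

section Final

variable {F : Type*} [Field F] [Fintype F] {p a : ℕ} [hp : Fact p.Prime]

/-- **Isolation of `(qⁿ + 1) / 2`.** -/
theorem top_of_iso (hF : Fintype.card F = p ^ a) (hodd : Odd (Fintype.card F)) (ha : Odd a) {k : ℕ} (hk : 2 ≤ k)
    {A : Type*} [Group A] [Finite A] (S : Subgroup A) [hN : S.Normal] (hc : Subgroup.centralizer (S : Set A) = ⊥)
    (e : ↥S ≃* Cfsg.POmega F (Cfsg.quadFormOdd (2 ^ k) F))
    (hmem : ∃ x : S, orderOf x = ((Fintype.card F) ^ 2 ^ k + 1) / 2)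
    (iso : ∀ (r : ℕ) (x : A), r.Prime → r ∣ ((Fintype.card F) ^ 2 ^ k + 1) / 2 → r ∣ orderOf x →
      orderOf x ∣ ((Fintype.card F) ^ 2 ^ k + 1) / 2)
    (hi : Nat.Coprime S.index (((Fintype.card F) ^ 2 ^ k + 1) / 2)) : S = ⊤ := by
  obtain ⟨q, hq⟩ : ∃ q, q = Fintype.card F := ⟨_, rfl⟩
  have h2 := two_ne hF hodd
  have hchar : CharP F p := charP_of_card hF
  have ha1 := one_le_of_card hF
  have hn4 : 4 ≤ 2 ^ k := by
    calc 4 = 2 ^ 2 := by norm_num
      _ ≤ 2 ^ k := Nat.pow_le_pow_right (by norm_num) hk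
  have hpodd : Odd p := by
    rw [hF] at hodd
    exact (Nat.odd_pow_iff (by omega)).1 hodd
  have hp3 : 3 ≤ p := by
    have := hp.out.two_le
    rcases hpodd with ⟨c, hc⟩
    omega
  -- the prime `r`
  obtain ⟨r, hr, hr2, hrp⟩ := exists_prime_plus hp3 hpodd (by omega : 1 ≤ k)
  have hrf : Fact r.Prime := ⟨hr⟩
  have hord := orderOf_eq hr hr2 hrp
  have hrq : r ∣ q ^ 2 ^ k + 1 := by
    have h1 : p ^ 2 ^ k + 1 ∣ (p ^ 2 ^ k) ^ a + 1 ^ a := Odd.nat_add_dvd_pow_add_pow _ _ ha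
    rw [one_pow, ← pow_mul, mul_comm, pow_mul, ← hF, ← hq] at h1
    exact hrp.trans h1
  have hq4 : q ^ 2 ^ k % 4 = 1 := by
    obtain ⟨j, hj⟩ : ∃ j, k = j + 1 := ⟨k - 1, by omega⟩
    rw [hj, pow_succ, mul_comm, pow_mul, Nat.pow_mod]
    have : q ^ 2 % 4 = 1 := by
      rw [← hq] at hodd
      obtain ⟨c, hc⟩ := hodd
      rw [hc]
      have e : (2 * c + 1) ^ 2 = 4 * (c * c + c) + 1 := by ring
      omega
    rw [this, one_pow]
    norm_num
  obtain ⟨m, hm⟩ : ∃ m, m = (q ^ 2 ^ k + 1) / 2 := ⟨_, rfl⟩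
  rw [← hq, ← hm] at hmem iso hi
  have hm2 : 2 * m = q ^ 2 ^ k + 1 := by omega
  have hrm : r ∣ m := by
    rw [← hm2] at hrq
    exact (hr.dvd_mul.1 hrq).resolve_left (fun h => hr2 ((Nat.prime_dvd_prime_iff_eq hr Nat.prime_two).1 h))
  have hmodd : ¬ 2 ∣ m := by omega
  have hm0 : m ≠ 0 := by
    rintro rfl
    omega
  have hrnp : r ≠ p := by
    rintro rfl
    have h1 : r ∣ r ^ 2 ^ k := dvd_pow_self r (by positivity)
    exact hr.one_lt.ne' (Nat.dvd_one.1 ((Nat.dvd_add_right h1).1 hrp))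
  -- the geometry
  obtain ⟨φ⟩ := exists_equiv h2 (by omega : 3 ≤ 2 ^ k) e
  have hQ := nondeg_oddForm (2 ^ k) F h2
  have hfr : finrank F (Unit ⊕ (Fin (2 ^ k) ⊕ Fin (2 ^ k)) → F) = 2 * 2 ^ k + 1 := by
    rw [finrank_fintype_fun_eq_card]
    simp only [Fintype.card_sum, Fintype.card_unit, Fintype.card_fin]
    ring
  have hG := good_of_finite hQ (by rw [hfr]; omega)
  have hoddV : Odd (finrank F (Unit ⊕ (Fin (2 ^ k) ⊕ Fin (2 ^ k)) → F)) := by rw [hfr]; exact ⟨2 ^ k, rfl⟩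
  have hE : ∀ (g : (Unit ⊕ (Fin (2 ^ k) ⊕ Fin (2 ^ k)) → F) ≃ₗ[F] (Unit ⊕ (Fin (2 ^ k) ⊕ Fin (2 ^ k)) → F))
      (hg : g ∈ O (oddForm (2 ^ k) F)),
      g ∈ E (oddForm (2 ^ k) F) ↔ LinearEquiv.det g = 1 ∧ spin (oddForm (2 ^ k) F) ⟨g, hg⟩ = 1 := by
    intro g hg
    rw [FooteOrth.mem_E_iff hG h2 hg, spin_eq_sg]
  have hsurj := Cfsg.Agent.AutOrth.Final.surjective_odd (F := F) (by omega : 3 ≤ 2 ^ k) h2
  -- the order of `S` and the Sylow `r`-subgroup
  obtain ⟨x₀, hx₀⟩ := hmem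
  have hcard : 2 * Nat.card S = q ^ ((2 ^ k) ^ 2) * ∏ i ∈ Finset.range (2 ^ k), (q ^ (2 * (i + 1)) - 1) := by
    rw [Nat.card_congr e.toEquiv]
    exact Cfsg.Agent.S0292.result hq.symm (by rw [hq]; exact hodd) _ (by omega)
  have hqr : (q : ZMod r) ^ 2 ^ k = -1 := by
    have h3 : ((q ^ 2 ^ k + 1 : ℕ) : ZMod r) = 0 := (ZMod.natCast_eq_zero_iff _ _).2 hrq
    push_cast at h3
    exact eq_neg_of_add_eq_zero_left h3
  have hordq : orderOf (q : ZMod r) = 2 * 2 ^ k := orderOf_eq hr hr2 hrq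
  have hnq : ¬ r ∣ q := by
    intro h3
    have h4 : r ∣ q ^ 2 ^ k := h3.trans (dvd_pow_self q (by positivity))
    exact hr.one_lt.ne' (Nat.dvd_one.1 ((Nat.dvd_add_right h4).1 hrq))
  have hnp : ∀ i, i + 1 < 2 ^ k → ¬ r ∣ q ^ (2 * (i + 1)) - 1 := by
    intro i hi1 h3
    have hq0 : 0 < q := by rw [hq]; exact Fintype.card_pos
    have h4 : (q : ZMod r) ^ (2 * (i + 1)) = 1 := by
      have h5 : ((q ^ (2 * (i + 1)) - 1 : ℕ) : ZMod r) = 0 := (ZMod.natCast_eq_zero_iff _ _).2 h3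
      rw [Nat.cast_sub (Nat.one_le_pow _ _ hq0)] at h5
      push_cast at h5
      exact sub_eq_zero.1 h5
    have h5 := orderOf_dvd_of_pow_eq_one h4
    rw [hordq] at h5
    have h6 := Nat.le_of_dvd (by omega) h5
    omega
  have hfact : Nat.card S ∣ (q ^ ((2 ^ k) ^ 2) * (∏ i ∈ Finset.range (2 ^ k - 1), (q ^ (2 * (i + 1)) - 1)) *
      (q ^ 2 ^ k - 1)) * m := by
    have h3 : ∏ i ∈ Finset.range (2 ^ k), (q ^ (2 * (i + 1)) - 1) =
        (∏ i ∈ Finset.range (2 ^ k - 1), (q ^ (2 * (i + 1)) - 1)) * (q ^ (2 * 2 ^ k) - 1) := by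
      obtain ⟨j, hj⟩ : ∃ j, 2 ^ k = j + 1 := ⟨2 ^ k - 1, by omega⟩
      rw [hj, Finset.prod_range_succ, Nat.add_sub_cancel]
    have h4 : q ^ (2 * 2 ^ k) - 1 = (q ^ 2 ^ k - 1) * (2 * m) := by
      rw [hm2, mul_comm 2 (2 ^ k), pow_mul, show (q ^ 2 ^ k) ^ 2 - 1 = (q ^ 2 ^ k) ^ 2 - 1 ^ 2 by norm_num,
        Nat.sq_sub_sq, mul_comm]
    rw [h3, h4] at hcard
    refine ⟨1, ?_⟩
    rw [mul_one]
    apply Nat.eq_of_mul_eq_mul_left (by norm_num : 0 < 2)
    rw [hcard]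
    ring
  have hfv : (Nat.card S).factorization r = m.factorization r := by
    apply le_antisymm
    · have hS0 : Nat.card S ≠ 0 := Nat.card_pos.ne'
      have h3 : r ^ (Nat.card S).factorization r ∣ m := by
        have h4 : r ^ (Nat.card S).factorization r ∣ (q ^ ((2 ^ k) ^ 2) *
            (∏ i ∈ Finset.range (2 ^ k - 1), (q ^ (2 * (i + 1)) - 1)) * (q ^ 2 ^ k - 1)) * m :=
          (Nat.ordProj_dvd _ _).trans hfact
        refine Nat.Coprime.dvd_of_dvd_mul_left (Nat.Coprime.pow_left _ ?_) h4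
        apply Nat.Coprime.mul_right
        · apply Nat.Coprime.mul_right
          · exact Nat.Coprime.pow_right _ ((Nat.Prime.coprime_iff_not_dvd hr).2 hnq)
          · apply Nat.Coprime.prod_right
            intro i hi1
            rw [Finset.mem_range] at hi1
            exact (Nat.Prime.coprime_iff_not_dvd hr).2 (hnp i (by omega))
        · rw [Nat.Prime.coprime_iff_not_dvd hr]
          intro h5
          have h6 : r ∣ q ^ 2 ^ k + 1 - (q ^ 2 ^ k - 1) := Nat.dvd_sub hrq h5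
          have h7 : q ^ 2 ^ k + 1 - (q ^ 2 ^ k - 1) = 2 := by
            have : 1 ≤ q ^ 2 ^ k := by omega
            omega
          rw [h7] at h6
          exact hr2 ((Nat.prime_dvd_prime_iff_eq hr Nat.prime_two).1 h6)
      exact (hr.pow_dvd_iff_le_factorization hm0).1 h3
    · have h3 : m ∣ Nat.card S := by rw [← hx₀]; exact orderOf_dvd_natCard x₀
      exact (Nat.factorization_le_iff_dvd hm0 Nat.card_pos.ne').2 h3 r
  -- a generator `u` of a Sylow subgroup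
  obtain ⟨j, hj⟩ : ∃ j, j = m.factorization r := ⟨_, rfl⟩
  have hj1 : 1 ≤ j := by rw [hj]; exact (hr.dvd_iff_one_le_factorization hm0).1 hrm
  obtain ⟨u, hu⟩ : ∃ u : S, orderOf u = r ^ j := by
    have h3 : r ^ j ∣ orderOf x₀ := by rw [hx₀, hj]; exact Nat.ordProj_dvd _ _
    exact ⟨x₀ ^ (orderOf x₀ / r ^ j), orderOf_pow_orderOf_div (orderOf_pos x₀).ne' h3⟩
  have hRcard : Nat.card (Subgroup.zpowers u) = r ^ (Nat.card S).factorization r := by
    rw [Nat.card_zpowers, hu, hfv, hj]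
  let R : Sylow r S := Sylow.ofCard (Subgroup.zpowers u) hRcard
  have hR : (R : Subgroup S) = Subgroup.zpowers u := rfl
  have hfrat := Sylow.normalizer_sup_eq_top (N := S) R
  -- the normaliser lies in `S`
  have key : ∀ y : A, y ∈ Subgroup.normalizer (((R : Subgroup S).map S.subtype : Subgroup A) : Set A) → y ∈ S := by
    intro y hy
    -- `z = u ^ (r ^ (j - 1))` of order `r`
    obtain ⟨z, hz⟩ : ∃ z : S, z = u ^ r ^ (j - 1) := ⟨_, rfl⟩
    have hzo : orderOf z = r := by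
      rw [hz, orderOf_pow_of_dvd (pow_pos hr.pos _).ne' (by rw [hu]; exact pow_dvd_pow r (by omega)), hu,
        Nat.pow_div (by omega) hr.pos]
      rw [show j - (j - 1) = 1 by omega, pow_one]
    have hzoA : orderOf (z : A) = r := by rw [Subgroup.orderOf_coe, hzo]
    -- `y u y⁻¹ = u ^ c`
    obtain ⟨c, hcu⟩ : ∃ c : ℕ, y * (u : A) * y⁻¹ = (u : A) ^ c := by
      have h3 : (u : A) ∈ (R : Subgroup S).map S.subtype := by
        rw [hR]
        exact ⟨u, Subgroup.mem_zpowers u, rfl⟩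
      have h4 := (Subgroup.mem_normalizer_iff.1 hy (u : A)).1 h3
      rw [hR] at h4
      obtain ⟨w, hw, hwe⟩ := h4
      obtain ⟨c, hc⟩ := (isOfFinOrder_of_finite u).mem_powers_iff_mem_zpowers.2 hw
      refine ⟨c, ?_⟩
      rw [← hwe, ← hc]
      rfl
    have hcz : y * (z : A) * y⁻¹ = (z : A) ^ c := by
      have h3 : (z : A) = (u : A) ^ r ^ (j - 1) := by rw [hz]; rfl
      rw [h3, ← conj_pow, hcu, ← pow_mul, ← pow_mul, mul_comm]
    have hrc : ¬ r ∣ c := by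
      intro h3
      have h4 : (z : A) ^ c = 1 := by
        rw [← orderOf_dvd_iff_pow_eq_one, hzoA]
        exact h3
      rw [h4, mul_inv_eq_one] at hcz
      have h5 : (z : A) = 1 := mul_eq_left.1 hcz
      rw [h5, orderOf_one] at hzoA
      exact hr.one_lt.ne hzoA
    -- the semilinear map
    obtain ⟨M, hM⟩ := exists_acts hG hsurj φ y
    obtain ⟨σ, b, hMc⟩ := M.2
    obtain ⟨g, hg⟩ : ∃ g, g = (φ z).1 := ⟨_, rfl⟩
    have hgE : g ∈ E (oddForm (2 ^ k) F) := by rw [hg]; exact (φ z).2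
    have hgO : g ∈ O (oddForm (2 ^ k) F) := E_le_O hgE
    have hgdet := ((hE g hgO).1 hgE).1
    have hgo : orderOf g = r := by rw [hg, Subgroup.orderOf_coe, MulEquiv.orderOf_eq, hzo]
    have hgr : g ^ r = 1 := by rw [← hgo]; exact pow_orderOf_eq_one g
    have hcomm : ∀ v, M.1 (en g v) = (en g ^ c) (M.1 v) := by
      intro v
      have h3 := hM z
      have h4 : (⟨y * (z : A) * y⁻¹, hN.conj_mem z z.2 y⟩ : S) = z ^ c := by
        apply Subtype.ext
        show y * (z : A) * y⁻¹ = ((z ^ c : S) : A)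
        rw [hcz]
        rfl
      rw [h4, map_pow, ← hg] at h3
      have h5 : (g ^ c) (M.1 v) = conjLin M g (M.1 v) := by rw [← h3, hg]; rfl
      rw [conjLin_apply'] at h5
      rw [← en_pow]
      exact h5.symm
    obtain ⟨v, hv, hgv⟩ := exists_fixed h2 hQ hoddV hgO hgdet hgr ((Nat.coprime_primes hr hp.out).2 hrnp)
    have hv0 : v ≠ 0 := by
      rintro rfl
      exact hv (QuadraticMap.map_zero _)
    have hcop : Nat.Coprime (2 * 2 ^ k) a := by
      rw [← pow_succ']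
      exact Nat.Coprime.pow_left _ (Nat.coprime_two_left.2 ha)
    have hexp := exponent (V := Unit ⊕ (Fin (2 ^ k) ⊕ Fin (2 ^ k)) → F) (G := en g) (n := 2 ^ k) hF hfr.le hr
      (by omega) hord hcop (by rw [← en_pow, hgr]; rfl) (by
        intro h3
        have h4 : g = 1 := en_inj h3
        rw [h4, orderOf_one] at hgo
        exact hr.one_lt.ne hgo) hv0 hgv hrc (σ := σ)
      (aeval_minpoly_map hMc.map_zero hMc.add hMc.smul M.1.surjective hcomm)
    -- a power of `y` commutes with `z`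
    have hpow : ∀ i : ℕ, y ^ i * (z : A) * (y ^ i)⁻¹ = (z : A) ^ c ^ i := by
      intro i
      induction i with
      | zero => simp
      | succ i ih =>
        have e1 : y ^ (i + 1) * (z : A) * (y ^ (i + 1))⁻¹ = y * (y ^ i * (z : A) * (y ^ i)⁻¹) * y⁻¹ := by
          rw [pow_succ']
          group
        rw [e1, ih, ← conj_pow, hcz, ← pow_mul, pow_succ, mul_comm]
    have hyz : Commute (y ^ (2 * 2 ^ k)) (z : A) := by
      have h3 := hpow (2 * 2 ^ k)
      have h4 : (z : A) ^ c ^ (2 * 2 ^ k) = z := by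
        conv_rhs => rw [← pow_one (z : A)]
        rw [pow_eq_pow_iff_modEq, hzoA]
        exact hexp
      rw [h4, mul_inv_eq_iff_eq_mul] at h3
      exact h3
    have hyS : y ^ (2 * 2 ^ k) ∈ S := mem_of_coprime hi (order_dvd_of_comm hr hrm iso hzoA hyz)
    -- the field automorphism is trivial
    have hs1 : sg hG M ^ (2 * 2 ^ k) = 1 := by
      rw [← map_pow]
      exact sg_of_mem hG hyS (hM.pow _)
    have hs2 : sg hG M ^ a = 1 := by
      have h5 : Nat.card (RingAut F) = a := Cfsg.Agent.Lib.FieldAutCard.card_ringAut ha1 hF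
      have hfin : Finite (RingAut F) := Nat.finite_of_card_ne_zero (by omega)
      rw [← h5]
      exact pow_card_eq_one'
    have hs3 : sg hG M = 1 := by
      have h5 : orderOf (sg hG M) ∣ 1 := by
        rw [← Nat.Coprime.gcd_eq_one hcop]
        exact Nat.dvd_gcd (orderOf_dvd_of_pow_eq_one hs1) (orderOf_dvd_of_pow_eq_one hs2)
      exact orderOf_eq_one_iff.1 (Nat.dvd_one.1 h5)
    obtain ⟨g', hg', hdet', hgc'⟩ := exists_lin_of_sg hG h2 hoddV hs3
    refine mem_of_lin (p := p) hc hG h2 hoddV hE φ hr hr2 hrnp ?_ ?_ hg' hdet' fun t => ?_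
    · rw [← hzo]; exact orderOf_dvd_natCard z
    · intro x hx
      have h3 := iso r x hr hrm (by rw [hx]; exact Dvd.intro_left _ rfl)
      rw [hx] at h3
      exact hmodd ((Dvd.intro _ rfl).trans h3)
    · rw [hM t, hgc']
  rw [eq_top_iff, ← hfrat, sup_le_iff]
  exact ⟨key, le_rfl⟩

end Final

end Cfsg.Agent.H481.OddAut
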